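import Cfsg.Agent.H776.P4.Stmts
import Cfsg.Agent.H595.PU.Pos

/-!
# S5210, task P4-POS (helper396): every `p'`-group of automorphisms of `PG K` is conjugate into `TP K`
-/

set_option autoImplicit false

namespace Cfsg.Agent.H396.P4

open Cfsg Cfsg.FusionSystem Cfsg.Agent.H776.P4
open Cfsg.Agent.H756.PU (HypK)
open Cfsg.Agent.H595.PU (exists_om exists_mv sz_in)

universe u

variable {K : Type u} [Field K] [StarRing K] {p n : ℕ}

/-! ### elements -/

theorem mem_PV {g : PG K} : g ∈ PV K ↔ g.r = 0 := Iff.rfl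
theorem mem_PQ {g : PG K} : g ∈ PQ K ↔ g.c = 0 := Iff.rfl
theorem mem_PY {g : PG K} : g ∈ PY K ↔ g.r = 0 ∧ g.c = 0 := Iff.rfl
theorem mem_PZ {g : PG K} : g ∈ PZ K ↔ g.r = 0 ∧ g.b = 0 ∧ g.c = 0 := Iff.rfl

/-- `u_r` times an element of `Y/Z` -/
def mk (r b : K) : PG K := ⟨r, 0, b, 0, star_zero K, star_zero K⟩

/-- elements of `V` -/
def mkV (a b c : K) (ha : star a = a) (hc : star c = c) : PG K := ⟨0, a, b, c, ha, hc⟩

theorem comm_r (x y : PG K) : (x * y * x⁻¹ * y⁻¹).r = 0 := by
  simp only [PG.mul_r, PG.inv_r]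
  ring

theorem comm_c (x y : PG K) : (x * y * x⁻¹ * y⁻¹).c = 0 := by
  simp only [PG.mul_c, PG.inv_c]
  ring

theorem comm_b (x y : PG K) : (x * y * x⁻¹ * y⁻¹).b = x.r * y.c - y.r * x.c := by
  simp only [PG.mul_r, PG.mul_b, PG.inv_r, PG.inv_c, PG.inv_b]
  ring

theorem comm_a (x y : PG K) : (x * y * x⁻¹ * y⁻¹).a =
    x.r * star y.b + star x.r * y.b + x.r * star x.r * y.c -
      (y.r * star x.b + star y.r * x.b + y.r * star y.r * x.c) := by
  simp only [PG.mul_r, PG.mul_a, PG.inv_r, PG.inv_c, PG.inv_b, PG.inv_a, star_add, star_mul', star_neg,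
    x.hc, y.hc]
  ring

theorem commute_iff (x y : PG K) : x * y = y * x ↔ x.r * y.c = y.r * x.c ∧
    x.r * star y.b + star x.r * y.b + x.r * star x.r * y.c =
      y.r * star x.b + star y.r * x.b + y.r * star y.r * x.c := by
  constructor
  · intro h
    have h1 := congrArg PG.b h
    have h2 := congrArg PG.a h
    rw [PG.mul_b, PG.mul_b] at h1
    rw [PG.mul_a, PG.mul_a] at h2
    exact ⟨by linear_combination h1, by linear_combination h2⟩
  · rintro ⟨h1, h2⟩
    ext
    · simp only [PG.mul_r]; ring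
    · rw [PG.mul_a, PG.mul_a]; linear_combination h2
    · rw [PG.mul_b, PG.mul_b]; linear_combination h1
    · simp only [PG.mul_c]; ring

/-! ### characteristic subgroups -/

/-- all automorphisms fix `Q` -/
def Ch (Q : Subgroup (PG K)) : Prop := ∀ (α : MulAut (PG K)) (g : PG K), g ∈ Q → α g ∈ Q

theorem Ch.iff {Q : Subgroup (PG K)} (h : Ch Q) (α : MulAut (PG K)) (g : PG K) : α g ∈ Q ↔ g ∈ Q := by
  refine ⟨fun hg => ?_, h α g⟩
  have := h α⁻¹ _ hg
  have e : α⁻¹ (α g) = g := α.symm_apply_apply g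
  rwa [e] at this

theorem ch_of_map {Q : Subgroup (PG K)} (h : ∀ α : MulAut (PG K), Q.map α.toMonoidHom = Q) : Ch Q := by
  intro α g hg
  rw [← h α]
  exact ⟨g, hg, rfl⟩

/-- the chain is characteristic -/
structure AllCh (K : Type u) [Field K] [StarRing K] : Prop where
  cV : Ch (PV K)
  cQ : Ch (PQ K)
  cY : Ch (PY K)
  cZ : Ch (PZ K)

theorem ch_PZ (h : HypK K p n) (hY : Ch (PY K)) : Ch (PZ K) := by
  obtain ⟨m, hm⟩ := exists_mv h
  have key : ∀ g : PG K, g ∈ PZ K ↔ g ∈ PY K ∧ ∀ x : PG K, g * x = x * g := by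
    intro g
    constructor
    · rintro ⟨h1, h2, h3⟩
      refine ⟨⟨h1, h3⟩, fun x => ?_⟩
      rw [commute_iff, h1, h2, h3]
      simp
    · rintro ⟨⟨h1, h3⟩, h6⟩
      refine ⟨h1, ?_, h3⟩
      have e1 := ((commute_iff _ _).1 (h6 (mk 1 0))).2
      have e2 := ((commute_iff _ _).1 (h6 (mk m 0))).2
      simp only [mk, h1, h3, star_one, star_zero, mul_zero, add_zero, one_mul] at e1 e2
      have e3 : (star m - m) * g.b = 0 := by linear_combination m * e1 - e2
      exact (mul_eq_zero.1 e3).resolve_left (sub_ne_zero.2 hm)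
  intro α g hg
  rw [key] at hg ⊢
  refine ⟨hY α g hg.1, fun x => ?_⟩
  obtain ⟨y, rfl⟩ := α.surjective x
  rw [← map_mul, ← map_mul, hg.2 y]

theorem allCh (h : HypK K p n) (hTI : StTI.{u}) : AllCh K := by
  have cV : Ch (PV K) := ch_of_map ((hTI h).2 (PV K) (Or.inl rfl)).2.2
  have cQ : Ch (PQ K) := ch_of_map ((hTI h).2 (PQ K) (Or.inr rfl)).2.2
  have cY : Ch (PY K) := fun α g hg => ⟨cV α g hg.1, cQ α g hg.2⟩
  exact ⟨cV, cQ, cY, ch_PZ h cY⟩

/-! ### the defect of an automorphism -/

/-- the counting argument: a coordinate `χ` additive on `P` and preserved by `α` vanishes on `x⁻¹ α x` -/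
theorem defect {P : Subgroup (PG K)} {χ : PG K → K} {α : MulAut (PG K)}
    (hχ : ∀ x ∈ P, ∀ y ∈ P, χ (x * y) = χ x + χ y) (hP : ∀ x ∈ P, α x ∈ P)
    (hα : ∀ x ∈ P, χ (α x) = χ x) (h1 : χ 1 = 0) {x : PG K} (hx : x⁻¹ * α x ∈ P) {m : ℕ}
    (hm : α ^ m = 1) (hm0 : (m : K) ≠ 0) : χ (x⁻¹ * α x) = 0 := by
  have key : ∀ j : ℕ, x⁻¹ * (α ^ j) x ∈ P ∧ χ (x⁻¹ * (α ^ j) x) = j * χ (x⁻¹ * α x) := by
    intro j
    induction j with
    | zero =>
      have e : x⁻¹ * (α ^ 0) x = 1 := by
        rw [pow_zero, MulAut.one_apply, inv_mul_cancel]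
      rw [e]
      exact ⟨P.one_mem, by rw [h1, Nat.cast_zero, zero_mul]⟩
    | succ j ih =>
      have e : x⁻¹ * (α ^ (j + 1)) x = (x⁻¹ * α x) * α (x⁻¹ * (α ^ j) x) := by
        rw [pow_succ', MulAut.mul_apply, map_mul, map_inv]
        group
      rw [e]
      refine ⟨P.mul_mem hx (hP _ ih.1), ?_⟩
      rw [hχ _ hx _ (hP _ ih.1), hα _ ih.1, ih.2]
      push_cast
      ring
  have h2 := (key m).2
  rw [hm, MulAut.one_apply, inv_mul_cancel, h1] at h2
  exact (mul_eq_zero.1 h2.symm).resolve_left hm0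

/-! ### the coordinates of an automorphism -/

theorem r_congr (hc : AllCh K) (α : MulAut (PG K)) {x y : PG K} (h : x.r = y.r) : (α x).r = (α y).r := by
  have h1 : x⁻¹ * y ∈ PV K := by
    rw [mem_PV]
    simp [h]
  have h2 : (α (x⁻¹ * y)).r = 0 := hc.cV α _ h1
  rw [map_mul, map_inv, PG.mul_r, PG.inv_r] at h2
  linear_combination -h2

theorem c_congr (hc : AllCh K) (α : MulAut (PG K)) {x y : PG K} (h : x.c = y.c) : (α x).c = (α y).c := by
  have h1 : x⁻¹ * y ∈ PQ K := by
    rw [mem_PQ]
    simp [h]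
  have h2 : (α (x⁻¹ * y)).c = 0 := hc.cQ α _ h1
  rw [map_mul, map_inv, PG.mul_c, PG.inv_c] at h2
  linear_combination -h2

theorem b_congr (hc : AllCh K) (α : MulAut (PG K)) {x y : PG K} (hx : x ∈ PY K) (hy : y ∈ PY K)
    (h : x.b = y.b) : (α x).b = (α y).b := by
  have h1 : x⁻¹ * y ∈ PZ K := by
    refine ⟨?_, ?_, ?_⟩
    · simp [hx.1, hy.1]
    · rw [PG.mul_b, PG.inv_b, PG.inv_r, hx.1, hy.2, h]
      ring
    · simp [hx.2, hy.2]
  have h2 : (α (x⁻¹ * y)).b = 0 := (hc.cZ α _ h1).2.1
  have ax := hc.cY α x hx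
  have ay := hc.cY α y hy
  rw [map_mul, map_inv, PG.mul_b, PG.inv_b, PG.inv_r, ax.1, ay.2] at h2
  linear_combination -h2

/-- the automorphisms trivial on `S/Y` -/
def RR (_ : AllCh K) : Subgroup (MulAut (PG K)) where
  carrier := {α | ∀ x, (α x).r = x.r ∧ (α x).c = x.c}
  one_mem' := fun x => ⟨rfl, rfl⟩
  mul_mem' := by
    intro α β ha hb x
    rw [MulAut.mul_apply]
    exact ⟨((ha _).1).trans (hb x).1, ((ha _).2).trans (hb x).2⟩
  inv_mem' := by
    intro α ha x
    have h1 := ha (α⁻¹ x)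
    have e : α (α⁻¹ x) = x := α.apply_symm_apply x
    rw [e] at h1
    exact ⟨h1.1.symm, h1.2.symm⟩

theorem RR_normal (hc : AllCh K) : (RR hc).Normal := by
  constructor
  intro α ha γ x
  have e : γ (γ⁻¹ x) = x := γ.apply_symm_apply x
  have h1 := ha (γ⁻¹ x)
  rw [MulAut.mul_apply, MulAut.mul_apply]
  refine ⟨?_, ?_⟩
  · rw [r_congr hc γ h1.1, e]
  · rw [c_congr hc γ h1.2, e]

/-- a `p'`-element of `RR` is trivial -/
theorem RR_trivial (h : HypK K p n) (hc : AllCh K) {α : MulAut (PG K)} (ha : α ∈ RR hc) {m : ℕ}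
    (hm : α ^ m = 1) (hpm : ¬ p ∣ m) : α = 1 := by
  obtain ⟨w, hw⟩ := exists_om h
  have hm0 : (m : K) ≠ 0 := by
    have := h.char
    intro h0
    exact hpm ((CharP.cast_eq_zero_iff K p m).1 h0)
  have ha' : ∀ x, (α x).r = x.r ∧ (α x).c = x.c := ha
  have d0 : ∀ x, x⁻¹ * α x ∈ PY K := by
    intro x
    refine ⟨?_, ?_⟩
    · rw [PG.mul_r, PG.inv_r, (ha' x).1, neg_add_cancel]
    · rw [PG.mul_c, PG.inv_c, (ha' x).2, neg_add_cancel]
  -- on `Y/Z`
  have s1 : ∀ y ∈ PY K, (α y).b = y.b := by
    intro y hy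
    let x1 : PG K := mk y.b 0
    let x2 : PG K := mkV 0 0 1 (star_zero K) (star_one K)
    have e1 : (x1 * x2 * x1⁻¹ * x2⁻¹).b = y.b := by
      rw [comm_b]; simp [x1, x2, mk, mkV]
    have e2 : x1 * x2 * x1⁻¹ * x2⁻¹ ∈ PY K := ⟨comm_r _ _, comm_c _ _⟩
    rw [← b_congr hc α e2 hy e1, map_mul, map_mul, map_mul, map_inv, map_inv, comm_b, (ha' x1).1,
      (ha' x2).1, (ha' x1).2, (ha' x2).2]
    simp [x1, x2, mk, mkV]
  have d1 : ∀ x, x⁻¹ * α x ∈ PZ K := by
    intro x
    have := defect (P := PY K) (χ := PG.b) (α := α) (fun x hx y hy => by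
      rw [PG.mul_b, hx.1, zero_mul, add_zero]) (hc.cY α) s1 rfl (d0 x) hm hm0
    exact ⟨(d0 x).1, this, (d0 x).2⟩
  -- on `Z`
  have s2 : ∀ y ∈ PZ K, (α y).a = y.a := by
    intro y hy
    let x1 : PG K := mk 1 0
    let x2 : PG K := mk 0 (w * y.a)
    have hx2 : x2 ∈ PY K := ⟨rfl, rfl⟩
    have ax2 := hc.cY α x2 hx2
    have e3 : star (w * y.a) + w * y.a = y.a := by
      rw [star_mul', y.ha]
      linear_combination y.a * hw
    have e1 : (x1 * x2 * x1⁻¹ * x2⁻¹).a = y.a := by
      rw [comm_a]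
      simpa [x1, x2, mk] using e3
    have e4 : x1 * x2 * x1⁻¹ * x2⁻¹ = y := by
      ext
      · rw [comm_r, hy.1]
      · exact e1
      · rw [comm_b, hy.2.1]
        simp [x1, x2, mk]
      · rw [comm_c, hy.2.2]
    rw [← e4, map_mul, map_mul, map_mul, map_inv, map_inv, comm_a, comm_a, (ha' x1).1,
      (ha' x1).2, s1 x2 hx2, ax2.1, ax2.2]
    simp [x1, x2, mk]
  ext1 x
  have d2 : (x⁻¹ * α x).a = 0 := defect (P := PZ K) (χ := PG.a) (α := α) (fun x hx y hy => by
    rw [PG.mul_a, hx.1, star_zero]; ring) (hc.cZ α) s2 rfl (d1 x) hm hm0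
  have hd := d1 x
  have e : x⁻¹ * α x = 1 := by
    ext
    · exact hd.1
    · exact d2
    · exact hd.2.1
    · exact hd.2.2
  rw [MulAut.one_apply]
  exact (inv_mul_eq_one.1 e).symm

/-! ### `Aut (PG K) = RR · TP` -/

theorem finite_mulAut (h : HypK K p n) (hG : StGrp.{u}) : Finite (MulAut (PG K)) := by
  have h1 := (hG h).1
  have : Finite (PG K) := Nat.finite_of_card_ne_zero (by
    rw [h1]
    exact pow_ne_zero _ (pow_ne_zero _ h.pp.ne_zero))
  exact Finite.of_injective (fun α : MulAut (PG K) => (α : PG K → PG K)) (fun α β hab => by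
    ext1 x
    exact congrFun hab x)

/-- an additive map which is semilinear over the fixed field and respects the norm is a field automorphism -/
theorem mul_of_norm (h : HypK K p n) {F : K → K} (hadd : ∀ x y, F (x + y) = F x + F y) (h1 : F 1 = 1)
    (hlin : ∀ x c, star c = c → F (x * c) = F x * F c) (hN : ∀ x, F x * star (F x) = F (x * star x)) :
    ∀ x y, F (x * y) = F x * F y := by
  obtain ⟨m, hm⟩ := exists_mv h
  have h0 : F 0 = 0 := by
    have := hadd 0 0
    rw [add_zero] at this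
    linear_combination -this
  have hneg : ∀ x, F (-x) = - F x := by
    intro x
    have := hadd x (-x)
    rw [add_neg_cancel, h0] at this
    linear_combination -this
  have hTr : ∀ x, F x + star (F x) = F (x + star x) := by
    intro x
    have e1 := hN (x + 1)
    have e2 : (x + 1) * star (x + 1) = x * star x + (x + star x) + 1 := by
      rw [star_add, star_one]; ring
    rw [e2, hadd, hadd, hadd, h1, ← hN x, star_add, star_one] at e1
    linear_combination e1
  have hsq : ∀ x, F (x * x) = F x * F x := by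
    intro x
    have e1 : x * x = x * (x + star x) + -(x * star x) := by ring
    rw [e1, hadd, hneg, ← hN x, hlin x (x + star x) (by rw [star_add, star_star, add_comm]), ← hTr]
    ring
  -- the basis `1, m`
  have hd : m - star m ≠ 0 := sub_ne_zero.2 (Ne.symm hm)
  have hbas : ∀ x : K, ∃ a b : K, star a = a ∧ star b = b ∧ x = a + m * b := by
    intro x
    refine ⟨x - m * ((x - star x) / (m - star m)), (x - star x) / (m - star m), ?_, ?_, by ring⟩
    · rw [star_sub, star_mul', star_div₀, star_sub, star_sub, star_star, star_star]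
      have hd' : star m - m ≠ 0 := sub_ne_zero.2 hm
      field_simp
      ring
    · rw [star_div₀, star_sub, star_sub, star_star, star_star]
      have hd' : star m - m ≠ 0 := sub_ne_zero.2 hm
      field_simp
      ring
  have hm1 : ∀ x, F (x * m) = F x * F m := by
    intro x
    obtain ⟨a, b, ha, hb, rfl⟩ := hbas x
    have e1 : (a + m * b) * m = m * a + m * m * b := by ring
    rw [e1, hadd, hadd, hlin m a ha, hlin (m * m) b hb, hsq, hlin m b hb]
    ring
  intro x y
  obtain ⟨a, b, ha, hb, rfl⟩ := hbas y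
  have e1 : x * (a + m * b) = x * a + x * m * b := by ring
  rw [e1, hadd, hadd, hlin x a ha, hlin (x * m) b hb, hm1, hlin m b hb]
  ring

/-- every automorphism agrees on `S/Y` with an element of `TP` -/
theorem exists_tor (h : HypK K p n) (hc : AllCh K) (hG : StGrp.{u}) (α : MulAut (PG K)) :
    ∃ β ∈ TP K, α * β⁻¹ ∈ RR hc := by
  obtain ⟨w, hw⟩ := exists_om h
  have hfin := h.fin
  let f : K → K := fun t => (α (mk t 0)).r
  let B : K → K := fun t => (α (mk 0 t)).b
  let v : ∀ c : K, star c = c → PG K := fun c hc' => mkV 0 0 c (star_zero K) hc'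
  have hf : ∀ x, (α x).r = f x.r := fun x => r_congr hc α rfl
  have hB : ∀ x ∈ PY K, (α x).b = B x.b := fun x hx => b_congr hc α hx ⟨rfl, rfl⟩ rfl
  have hg : ∀ x : PG K, (α x).c = (α (v x.c x.hc)).c := fun x => c_congr hc α rfl
  have fadd : ∀ s t, f (s + t) = f s + f t := by
    intro s t
    have := hf (mk s 0 * mk t 0)
    rw [map_mul, PG.mul_r, hf, hf, PG.mul_r] at this
    exact this.symm
  have f0 : f 0 = 0 := by
    have := fadd 0 0
    rw [add_zero] at this
    linear_combination -this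
  have hcom : ∀ s c (hc' : star c = c), B (s * c) = f s * (α (v c hc')).c := by
    intro s c hc'
    let x1 : PG K := mk s 0
    let x2 : PG K := v c hc'
    have e1 : (x1 * x2 * x1⁻¹ * x2⁻¹).b = s * c := by
      rw [comm_b]; simp [x1, x2, v, mk, mkV]
    have e2 : x1 * x2 * x1⁻¹ * x2⁻¹ ∈ PY K := ⟨comm_r _ _, comm_c _ _⟩
    have e3 : (α x2).r = 0 := hc.cV α x2 rfl
    rw [← e1, ← hB _ e2, map_mul, map_mul, map_mul, map_inv, map_inv, comm_b, e3, zero_mul, sub_zero]
  have f1 : f 1 ≠ 0 := by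
    intro h0
    have h1 : α (mk 1 0) ∈ PV K := h0
    have h2 : (mk (1 : K) 0).r = 0 := (hc.cV.iff α _).1 h1
    exact one_ne_zero h2
  have finj : ∀ x, f x = 0 → x = 0 := by
    intro x h0
    have h1 : α (mk x 0) ∈ PV K := h0
    exact (hc.cV.iff α _).1 h1
  obtain ⟨g1, hg1⟩ : ∃ g1, g1 = (α (v 1 (star_one K))).c := ⟨_, rfl⟩
  have g10 : g1 ≠ 0 := by
    intro h0
    have h1 : α (v 1 (star_one K)) ∈ PQ K := hg1.symm.trans h0
    have h2 : (v 1 (star_one K)).c = 0 := (hc.cQ.iff α _).1 h1
    exact one_ne_zero h2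
  have g1s : star g1 = g1 := by rw [hg1]; exact (α (v 1 (star_one K))).hc
  have hBf : ∀ s, B s = f s * g1 := by
    intro s
    rw [hg1, ← hcom, mul_one]
  have hfg : ∀ s c (hc' : star c = c), f (s * c) * g1 = f s * (α (v c hc')).c := by
    intro s c hc'
    rw [← hcom, hBf]
  -- the map `F`
  obtain ⟨F, hF⟩ : ∃ F : K → K, ∀ t, F t = f t * (f 1)⁻¹ := ⟨fun t => f t * (f 1)⁻¹, fun t => rfl⟩
  have hfF : ∀ t, f t = f 1 * F t := by
    intro t
    rw [hF]
    field_simp
  have Fadd : ∀ x y, F (x + y) = F x + F y := by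
    intro x y
    rw [hF, hF, hF, fadd, add_mul]
  have F0 : F 0 = 0 := by rw [hF, f0, zero_mul]
  have F1 : F 1 = 1 := by rw [hF]; exact mul_inv_cancel₀ f1
  have hgF : ∀ c (hc' : star c = c), (α (v c hc')).c = g1 * F c := by
    intro c hc'
    have h1 := hfg 1 c hc'
    rw [one_mul] at h1
    apply mul_left_cancel₀ f1
    rw [← h1, hfF c]
    ring
  have Fs : ∀ c, star c = c → star (F c) = F c := by
    intro c hc'
    have h1 := (α (v c hc')).hc
    rw [hgF c hc', star_mul', g1s] at h1
    exact mul_left_cancel₀ g10 h1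
  have Flin : ∀ x c, star c = c → F (x * c) = F x * F c := by
    intro x c hc'
    have h1 := hfg x c hc'
    rw [hgF c hc', hfF (x * c), hfF x] at h1
    apply mul_left_cancel₀ (mul_ne_zero f1 g10)
    linear_combination h1
  have Finj : ∀ x, F x = 0 → x = 0 := by
    intro x hx
    apply finj
    rw [hfF, hx, mul_zero]
  have Fsub : ∀ x y, F x = F y → x = y := by
    intro x y hxy
    have h1 : F (x - y) = 0 := by
      have := Fadd (x - y) y
      rw [sub_add_cancel, hxy] at this
      linear_combination -this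
    exact sub_eq_zero.1 (Finj _ h1)
  -- the norm
  have hN : ∀ x, F x * star (F x) = F (x * star x) := by
    have hns : ∀ x : K, star (x * star x) = x * star x := fun x => by rw [star_mul', star_star, mul_comm]
    by_cases hex : ∃ t : K, star t = t ∧ t ≠ 0 ∧ t ≠ 1
    · obtain ⟨t, hts, ht0, ht1⟩ := hex
      -- the coordinates on `Z`
      let e : ∀ c : K, star c = c → K := fun c hc' => (α (mkV c 0 0 hc' (star_zero K))).a
      have he : ∀ (x b : K) (hs : star (x * star b + star x * b) = x * star b + star x * b),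
          e _ hs = f x * star (B b) + star (f x) * B b := by
        intro x b hs
        let x1 : PG K := mk x 0
        let x2 : PG K := mk 0 b
        have e1 : x1 * x2 * x1⁻¹ * x2⁻¹ = mkV _ 0 0 hs (star_zero K) := by
          ext
          · rw [comm_r]; rfl
          · rw [comm_a]; simp [x1, x2, mk, mkV]
          · rw [comm_b]; simp [x1, x2, mk, mkV]
          · rw [comm_c]; rfl
        have e2 : (α x2).r = 0 := hc.cV α x2 rfl
        have e3 : (α x2).c = 0 := hc.cQ α x2 rfl
        have e4 : (α x1).c = 0 := hc.cQ α x1 rfl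
        show (α (mkV _ 0 0 hs (star_zero K))).a = _
        rw [← e1, map_mul, map_mul, map_mul, map_inv, map_inv, comm_a, e2, e3, e4]
        simp [f, B, x1, x2]
      obtain ⟨e1, he1⟩ : ∃ e1, e1 = f 1 * star (B w) + star (f 1) * B w := ⟨_, rfl⟩
      have heF : ∀ c (hc' : star c = c), e c hc' = F c * e1 := by
        intro c hc'
        have h1 : c * star w + star c * w = c := by
          rw [hc']
          linear_combination c * hw
        have h2 := he c w (by rw [h1, hc'])
        have h3 : e (c * star w + star c * w) (by rw [h1, hc']) = e c hc' := by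
          simp only [h1]
        rw [← h3, h2, hfF c, star_mul', Fs c hc', he1]
        ring
      -- the relation
      let e2 : K → K := fun b => (α (mk 0 b)).a
      let h' : ∀ c : K, star c = c → K := fun c hc' => (α (v c hc')).b
      have hrel : ∀ (x c : K) (hc' : star c = c), F (x * star x) * F c * e1 + e2 (x * c) =
          f x * star (h' c hc') + star (f x) * h' c hc' + f x * star (f x) * (g1 * F c) := by
        intro x c hc'
        have hs : star (x * star x * c) = x * star x * c := by rw [star_mul', hns, hc']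
        let x1 : PG K := mk x 0
        let x2 : PG K := v c hc'
        have k1 : x1 * x2 * x1⁻¹ * x2⁻¹ = mkV (x * star x * c) 0 0 hs (star_zero K) * mk 0 (x * c) := by
          ext
          · rw [comm_r]; simp [mk, mkV]
          · rw [comm_a]; simp [x1, x2, v, mk, mkV, PG.mul_a]
          · rw [comm_b]; simp [x1, x2, v, mk, mkV, PG.mul_b]
          · rw [comm_c]; simp [mk, mkV]
        have k2 : (α x2).r = 0 := hc.cV α x2 rfl
        have k3 : (α x1).c = 0 := hc.cQ α x1 rfl
        have k4 : (α (mkV (x * star x * c) 0 0 hs (star_zero K))).r = 0 := hc.cV α _ rfl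
        have k5 := congrArg (fun g => (α g).a) k1
        simp only [map_mul, map_inv] at k5
        rw [comm_a, PG.mul_a, k2, k3, k4, hgF c hc'] at k5
        have k6 := heF (x * star x * c) hs
        rw [Flin _ c hc'] at k6
        have k7 : (α (mkV (x * star x * c) 0 0 hs (star_zero K))).a = F (x * star x) * F c * e1 := k6
        rw [k7] at k5
        simp only [star_zero, zero_mul, mul_zero, add_zero, sub_zero] at k5
        exact k5.symm
      obtain ⟨A, hA⟩ : ∃ A : K → K, ∀ x, A x = F (x * star x) * e1 - f x * star (f x) * g1 := ⟨_, fun x => rfl⟩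
      have hrel' : ∀ (x c : K) (hc' : star c = c), F c * A x =
          f x * star (h' c hc') + star (f x) * h' c hc' - e2 (x * c) := by
        intro x c hc'
        rw [hA]
        linear_combination hrel x c hc'
      have hfs : ∀ x c, star c = c → f (x * c) = f x * F c := by
        intro x c hc'
        rw [hfF, hfF x, Flin x c hc']
        ring
      have hAs : ∀ x c, star c = c → A (x * c) = F c * F c * A x := by
        intro x c hc'
        have k1 : x * c * star (x * c) = x * star x * c * c := by rw [star_mul', hc']; ring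
        rw [hA, hA, k1, Flin _ c hc', Flin _ c hc', hfs x c hc', star_mul', Fs c hc']
        ring
      have hL : ∀ x, (F t * F t - F t) * A x =
          F t * (f x * star (h' 1 (star_one K)) + star (f x) * h' 1 (star_one K)) -
            (f x * star (h' t hts) + star (f x) * h' t hts) := by
        intro x
        have k1 := hrel' (x * t) 1 (star_one K)
        have k2 := hrel' x t hts
        rw [F1, hAs x t hts, hfs x t hts, star_mul', Fs t hts, mul_one] at k1
        linear_combination k1 - k2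
      have hA0 : ∀ x, A x = 0 := by
        intro x
        have k1 := hL (x * t)
        have k2 := hL x
        rw [hAs x t hts, hfs x t hts, star_mul', Fs t hts] at k1
        have k3 : (F t * F t - F t) * (F t * F t - F t) * A x = 0 := by
          linear_combination k1 - F t * k2
        have k4 : F t * F t - F t ≠ 0 := by
          have k5 : F t ≠ 0 := fun k => ht0 (Finj t k)
          have k6 : F t - 1 ≠ 0 := fun k => ht1 (Fsub t 1 (by rw [F1]; exact sub_eq_zero.1 k))
          have k7 := mul_ne_zero k5 k6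
          intro k8
          apply k7
          linear_combination k8
        exact (mul_eq_zero.1 k3).resolve_left (mul_ne_zero k4 k4)
      have hA1 := hA0 1
      rw [hA, star_one, mul_one, F1, one_mul] at hA1
      intro x
      have k1 := hA0 x
      rw [hA, hfF x, star_mul'] at k1
      have k2 : f 1 * star (f 1) ≠ 0 := mul_ne_zero f1 (star_ne_zero.2 f1)
      apply mul_left_cancel₀ (mul_ne_zero k2 g10)
      linear_combination F (x * star x) * hA1 - k1
    · push Not at hex
      have hone : ∀ x : K, x ≠ 0 → x * star x = 1 := fun x hx =>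
        hex _ (hns x) (mul_ne_zero hx (star_ne_zero.2 hx))
      intro x
      by_cases hx : x = 0
      · rw [hx, zero_mul, F0, zero_mul]
      · rw [hone x hx, F1, hone (F x) (fun k => hx (Finj x k))]
  have Fmul := mul_of_norm h Fadd F1 Flin hN
  let φ : K →+* K :=
    { toFun := F
      map_one' := F1
      map_mul' := Fmul
      map_zero' := F0
      map_add' := Fadd }
  have hbij : Function.Bijective φ := Finite.injective_iff_bijective.1 φ.injective
  let τ : K ≃+* K := RingEquiv.ofBijective φ hbij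
  have hτ : ∀ t, τ t = F t := fun t => rfl
  obtain ⟨β, hβ⟩ := (hG h).2.2.1 (f 1) g1 τ f1 g10 g1s
  refine ⟨β, Subgroup.subset_closure ⟨_, _, _, hβ⟩, ?_⟩
  have e1 : ∀ x, (α x).r = (β x).r := by
    intro x
    rw [hf, hβ.r, hτ, ← hfF]
  have e2 : ∀ x, (α x).c = (β x).c := by
    intro x
    rw [hg, hβ.c, hτ, hgF]
  intro x
  have e : β (β⁻¹ x) = x := β.apply_symm_apply x
  rw [MulAut.mul_apply, e1, e2, e]
  exact ⟨rfl, rfl⟩

theorem RR_inf_TP (h : HypK K p n) (hc : AllCh K) (hG : StGrp.{u}) : RR hc ⊓ TP K = ⊥ := by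
  rw [eq_bot_iff]
  rintro α ⟨h1, h2⟩
  obtain ⟨s, l, τ, hα⟩ := (hG h).2.2.2.1 α h2
  have h1' : ∀ x, (α x).r = x.r ∧ (α x).c = x.c := h1
  have e2 : ∀ t, s * τ t = t := by
    intro t
    have := (h1' (mk t 0)).1
    rw [hα.r] at this
    exact this
  have es : s = 1 := by
    have := e2 1
    rwa [map_one, mul_one] at this
  have eτ : ∀ t, τ t = t := by
    intro t
    have := e2 t
    rwa [es, one_mul] at this
  have el : l = 1 := by
    have := (h1' (mkV 0 0 1 (star_zero K) (star_one K))).2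
    rw [hα.c] at this
    have e3 : l * τ 1 = 1 := this
    rwa [map_one, mul_one] at e3
  rw [Subgroup.mem_bot]
  ext1 x
  rw [MulAut.one_apply]
  ext
  · exact (h1' x).1
  · rw [hα.a, es, el, eτ, star_one, one_mul, one_mul, one_mul]
  · rw [hα.b, es, el, eτ, one_mul, one_mul]
  · exact (h1' x).2

theorem RR_card (h : HypK K p n) (hc : AllCh K) (hG : StGrp.{u}) : ∃ e : ℕ, Nat.card (RR hc) = p ^ e := by
  have := finite_mulAut h hG
  refine ⟨_, Nat.eq_prime_pow_of_unique_prime_dvd (Nat.card_pos (α := RR hc)).ne' ?_⟩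
  intro d hd hdvd
  by_contra hne
  have : Fact d.Prime := ⟨hd⟩
  obtain ⟨α, hα⟩ := exists_prime_orderOf_dvd_card' (G := RR hc) d hdvd
  have h1 : (α : MulAut (PG K)) ^ d = 1 := by
    rw [← SubmonoidClass.coe_pow, ← hα, pow_orderOf_eq_one, OneMemClass.coe_one]
  have h2 : (α : MulAut (PG K)) = 1 := RR_trivial h hc α.2 h1 (fun h3 =>
    hne ((Nat.prime_dvd_prime_iff_eq h.pp hd).1 h3).symm)
  have h3 : α = 1 := Subtype.ext h2
  rw [h3, orderOf_one] at hα
  exact hd.one_lt.ne hα

/-- task P4-POS: `StPos` from `StTI` and `StGrp` -/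
theorem stPos (hTI : StTI.{u}) (hG : StGrp.{u}) : StPos.{u} := by
  intro K _ _ p n h D hD
  have hc := allCh h hTI
  have := finite_mulAut h hG
  have : (RR hc).Normal := RR_normal hc
  obtain ⟨e, he⟩ := RR_card h hc hG
  have hp : Fact p.Prime := ⟨h.pp⟩
  have hpg : IsPGroup p (RR hc) := IsPGroup.of_card he
  have hnil := hpg.isNilpotent
  have hs : Group.IsSolvable (RR hc) := inferInstance
  refine sz_in (RR hc) D (TP K) hs ?_ (RR_inf_TP h hc hG) (exists_tor h hc hG)
  rw [he]
  exact Nat.Coprime.pow_right e hD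

end Cfsg.Agent.H396.P4
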